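import Mathlib

/-!
# The plan machine, definitions

A `Plan` is a search tree over two lists of registers: scalar registers `k i` (one value per
run) and lane registers `v i` (many candidates at once).  `Plan.WP g p ks ls G` is what a user
of the machine proves about the actual values `ks`, `ls`; `run` and its soundness (file
`H728/PM/Run.lean`) give `G` from it.
-/

set_option autoImplicit false

namespace Cfsg.Agent.H728.PM

/-- Expressions in the scalar registers `k i` and in the lane registers `v i`; `pw n` is `g ^ n`,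
`fr x` is `x ^ 3`. -/
inductive Ex : Type
  | k (i : ℕ) : Ex
  | v (i : ℕ) : Ex
  | pw (n : ℕ) : Ex
  | zero : Ex
  | add (a b : Ex) : Ex
  | sub (a b : Ex) : Ex
  | neg (a : Ex) : Ex
  | mul (a b : Ex) : Ex
  | fr (a : Ex) : Ex

/-- The value of an expression. -/
def Ex.eval {F : Type*} [Field F] (g : F) (ks ls : List F) : Ex → F
  | .k i => ks.getD i 0
  | .v i => ls.getD i 0
  | .pw n => g ^ n
  | .zero => 0
  | .add a b => a.eval g ks ls + b.eval g ks ls
  | .sub a b => a.eval g ks ls - b.eval g ks ls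
  | .neg a => -a.eval g ks ls
  | .mul a b => a.eval g ks ls * b.eval g ks ls
  | .fr a => a.eval g ks ls ^ 3

/-- Search plans. -/
inductive Plan : Type
  | kf (e : Ex) (p : Plan) : Plan
  | kfl (cs : List Ex) (p : Plan) : Plan
  | ksp (e : Ex) (p q : Plan) : Plan
  | alt (es : List Ex) (p : Plan) : Plan
  | or (p q : Plan) : Plan
  | ex (p : Plan) : Plan
  | exn (p : Plan) : Plan
  | df (e : Ex) (p : Plan) : Plan
  | fl (cs : List Ex) (js : List ℕ) (p : Plan) : Plan
  | sel (js : List ℕ) (p : Plan) : Plan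
  | leaf (ds : List Ex) : Plan

/-- What the user proves for the actual values of the registers. -/
def Plan.WP {F : Type*} [Field F] (g : F) : Plan → List F → List F → Prop → Prop
  | .kf e p, ks, ls, G => p.WP g (ks ++ [e.eval g ks []]) ls G
  | .kfl cs p, ks, ls, G => (∀ c ∈ cs, c.eval g ks [] = 0) ∧ p.WP g ks ls G
  | .ksp e p q, ks, ls, G =>
    (e.eval g ks [] = 0 → p.WP g ks ls G) ∧ (e.eval g ks [] ≠ 0 → q.WP g ks ls G)
  | .alt es p, ks, ls, G => ∃ e ∈ es, p.WP g (ks ++ [e.eval g ks []]) ls G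
  | .or p q, ks, ls, G => p.WP g ks ls G ∨ q.WP g ks ls G
  | .ex p, ks, ls, G => ∃ y : F, y ^ 81 = y ∧ p.WP g ks (ls ++ [y, y ^ 79]) G
  | .exn p, ks, ls, G => ∃ y : F, y ^ 80 = 1 ∧ p.WP g ks (ls ++ [y, y ^ 79]) G
  | .df e p, ks, ls, G => p.WP g ks (ls ++ [e.eval g ks ls]) G
  | .fl cs js p, ks, ls, G => (∀ c ∈ cs, c.eval g ks ls = 0) ∧ p.WP g ks (js.map fun j => ls.getD j 0) G
  | .sel js p, ks, ls, G => p.WP g ks (js.map fun j => ls.getD j 0) G
  | .leaf ds, ks, ls, G => (∀ d ∈ ds, d.eval g ks ls = 0) → G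

section
variable {F : Type*} [Field F] (g : F) (ks ls : List F) (G : Prop)

theorem eval_k (i : ℕ) : (Ex.k i).eval g ks ls = ks.getD i 0 := rfl
theorem eval_v (i : ℕ) : (Ex.v i).eval g ks ls = ls.getD i 0 := rfl
theorem eval_pw (n : ℕ) : (Ex.pw n).eval g ks ls = g ^ n := rfl
theorem eval_zero : Ex.zero.eval g ks ls = 0 := rfl
theorem eval_add (a b : Ex) : (Ex.add a b).eval g ks ls = a.eval g ks ls + b.eval g ks ls := rfl
theorem eval_sub (a b : Ex) : (Ex.sub a b).eval g ks ls = a.eval g ks ls - b.eval g ks ls := rfl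
theorem eval_neg (a : Ex) : (Ex.neg a).eval g ks ls = -a.eval g ks ls := rfl
theorem eval_mul (a b : Ex) : (Ex.mul a b).eval g ks ls = a.eval g ks ls * b.eval g ks ls := rfl
theorem eval_fr (a : Ex) : (Ex.fr a).eval g ks ls = a.eval g ks ls ^ 3 := rfl

theorem WP_kf (e : Ex) (p : Plan) :
    (Plan.kf e p).WP g ks ls G = p.WP g (ks ++ [e.eval g ks []]) ls G := rfl
theorem WP_kfl (cs : List Ex) (p : Plan) :
    (Plan.kfl cs p).WP g ks ls G = ((∀ c ∈ cs, c.eval g ks [] = 0) ∧ p.WP g ks ls G) := rfl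
theorem WP_ksp (e : Ex) (p q : Plan) :
    (Plan.ksp e p q).WP g ks ls G =
      ((e.eval g ks [] = 0 → p.WP g ks ls G) ∧ (e.eval g ks [] ≠ 0 → q.WP g ks ls G)) := rfl
theorem WP_alt (es : List Ex) (p : Plan) :
    (Plan.alt es p).WP g ks ls G = ∃ e ∈ es, p.WP g (ks ++ [e.eval g ks []]) ls G := rfl
theorem WP_or (p q : Plan) :
    (Plan.or p q).WP g ks ls G = (p.WP g ks ls G ∨ q.WP g ks ls G) := rfl
theorem WP_ex (p : Plan) :
    (Plan.ex p).WP g ks ls G = ∃ y : F, y ^ 81 = y ∧ p.WP g ks (ls ++ [y, y ^ 79]) G := rfl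
theorem WP_exn (p : Plan) :
    (Plan.exn p).WP g ks ls G = ∃ y : F, y ^ 80 = 1 ∧ p.WP g ks (ls ++ [y, y ^ 79]) G := rfl
theorem WP_df (e : Ex) (p : Plan) :
    (Plan.df e p).WP g ks ls G = p.WP g ks (ls ++ [e.eval g ks ls]) G := rfl
theorem WP_fl (cs : List Ex) (js : List ℕ) (p : Plan) :
    (Plan.fl cs js p).WP g ks ls G =
      ((∀ c ∈ cs, c.eval g ks ls = 0) ∧ p.WP g ks (js.map fun j => ls.getD j 0) G) := rfl
theorem WP_sel (js : List ℕ) (p : Plan) :
    (Plan.sel js p).WP g ks ls G = p.WP g ks (js.map fun j => ls.getD j 0) G := rfl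
theorem WP_leaf (ds : List Ex) :
    (Plan.leaf ds).WP g ks ls G = ((∀ d ∈ ds, d.eval g ks ls = 0) → G) := rfl

end

end Cfsg.Agent.H728.PM
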