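import Cfsg.Agent.H728.PM.Def
import Cfsg.Agent.H728.BS.Tab
import Cfsg.Agent.H516.BS.Comp

/-!
# The plan machine: the run on planes (helper728, S5925; design of helper947); soundness in `Sound`
-/

set_option autoImplicit false

namespace Cfsg.Agent.H728.PM

open Cfsg.Agent.H516.BS Cfsg.Agent.H728.BS

/-! ### evaluation -/

/-- Reading a register. -/
def gk (L : ℕ) (rs : List Q) (j : ℕ) (k : Q → Bool) : Bool :=
  Bool.rec (motive := fun _ => Bool) false (k (getr rs (Nat.sub L (Nat.succ j)))) (Nat.ble (Nat.succ j) L)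

/-- A scalar on all lanes. -/
def qb (O : ℕ) (X : Q) : Q :=
  ⟨⟨Nat.mul (Nat.land X.c0.m 1) O, Nat.mul (Nat.land X.c0.s 1) O⟩,
    ⟨Nat.mul (Nat.land X.c1.m 1) O, Nat.mul (Nat.land X.c1.s 1) O⟩,
    ⟨Nat.mul (Nat.land X.c2.m 1) O, Nat.mul (Nat.land X.c2.s 1) O⟩,
    ⟨Nat.mul (Nat.land X.c3.m 1) O, Nat.mul (Nat.land X.c3.s 1) O⟩⟩

/-- Reading a scalar register on all lanes. -/
def gkb (O L : ℕ) (rs : List Q) (j : ℕ) (k : Q → Bool) : Bool :=
  Bool.rec (motive := fun _ => Bool) false (fo (qb O (getr rs (Nat.sub L (Nat.succ j)))) k) (Nat.ble (Nat.succ j) L)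

/-- Evaluation on planes. -/
noncomputable def evG (O : ℕ) (fk fv : ℕ → (Q → Bool) → Bool) (e : Ex) : (Q → Bool) → Bool :=
  Ex.rec (motive := fun _ => (Q → Bool) → Bool)
    (fun j k => fk j k)
    (fun j k => fv j k)
    (fun n k => fo (qpw O n) k)
    (fun k => k ⟨⟨0, 0⟩, ⟨0, 0⟩, ⟨0, 0⟩, ⟨0, 0⟩⟩)
    (fun _ _ x y k => x fun X => y fun Y => fo (qadd X Y) k)
    (fun _ _ x y k => x fun X => y fun Y => fo (qsub X Y) k)
    (fun _ x k => x fun X => fo (qneg X) k)
    (fun _ _ x y k => x fun X => y fun Y => fo (qmul X Y) k)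
    (fun _ x k => x fun X => fo (qfrob X) k) e

section
variable (O : ℕ) (fk fv : ℕ → (Q → Bool) → Bool) (k : Q → Bool)
theorem evG_k (j : ℕ) : evG O fk fv (.k j) k = fk j k := rfl
theorem evG_v (j : ℕ) : evG O fk fv (.v j) k = fv j k := rfl
theorem evG_pw (n : ℕ) : evG O fk fv (.pw n) k = fo (qpw O n) k := rfl
theorem evG_zero : evG O fk fv .zero k = k ⟨⟨0, 0⟩, ⟨0, 0⟩, ⟨0, 0⟩, ⟨0, 0⟩⟩ := rfl
theorem evG_add (x y : Ex) : evG O fk fv (.add x y) k =
    evG O fk fv x fun X => evG O fk fv y fun Y => fo (qadd X Y) k := rfl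
theorem evG_sub (x y : Ex) : evG O fk fv (.sub x y) k =
    evG O fk fv x fun X => evG O fk fv y fun Y => fo (qsub X Y) k := rfl
theorem evG_neg (x : Ex) : evG O fk fv (.neg x) k = evG O fk fv x fun X => fo (qneg X) k := rfl
theorem evG_mul (x y : Ex) : evG O fk fv (.mul x y) k =
    evG O fk fv x fun X => evG O fk fv y fun Y => fo (qmul X Y) k := rfl
theorem evG_fr (x : Ex) : evG O fk fv (.fr x) k = evG O fk fv x fun X => fo (qfrob X) k := rfl
end

/-- Scalar evaluation. -/
noncomputable def evK (K : ℕ) (ks : List Q) (e : Ex) (k : Q → Bool) : Bool :=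
  evG 1 (gk K ks) (fun _ _ => false) e k

/-- Evaluation on lanes. -/
noncomputable def evL (K : ℕ) (ks : List Q) (O L : ℕ) (ls : List Q) (e : Ex) (k : Q → Bool) : Bool :=
  evG O (gkb O K ks) (gk L ls) e k

/-- The union of the nonzero lanes of the constraints. -/
noncomputable def consL (K : ℕ) (ks : List Q) (O L : ℕ) (ls : List Q) (cs : List Ex) : ℕ → (ℕ → Bool) → Bool :=
  List.rec (motive := fun _ => ℕ → (ℕ → Bool) → Bool) (fun acc k => k acc)
    (fun c _ ih acc k => evL K ks O L ls c fun X => fc (Nat.lor acc (qnz X)) fun a => ih a k) cs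

theorem consL_cons (K : ℕ) (ks : List Q) (O L : ℕ) (ls : List Q) (c : Ex) (cs : List Ex) (acc : ℕ) (k : ℕ → Bool) :
    consL K ks O L ls (c :: cs) acc k = evL K ks O L ls c fun X => fc (Nat.lor acc (qnz X)) fun a =>
      consL K ks O L ls cs a k := rfl

/-- All vanish on all lanes. -/
noncomputable def leafL (K : ℕ) (ks : List Q) (O L : ℕ) (ls : List Q) (ds : List Ex) : Bool :=
  List.rec (motive := fun _ => Bool) true
    (fun d _ ih => evL K ks O L ls d fun X => Bool.rec (motive := fun _ => Bool) false ih (Nat.beq (qnz X) 0)) ds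

theorem leafL_cons (K : ℕ) (ks : List Q) (O L : ℕ) (ls : List Q) (d : Ex) (ds : List Ex) :
    leafL K ks O L ls (d :: ds) = evL K ks O L ls d fun X =>
      Bool.rec (motive := fun _ => Bool) false (leafL K ks O L ls ds) (Nat.beq (qnz X) 0) := rfl

/-- Is the scalar zero. -/
def kz (X : Q) : Bool := Nat.beq (Nat.land (qnz X) 1) 0

/-- Scalar constraints: `true` if one does not vanish, `b` otherwise. -/
noncomputable def consK (K : ℕ) (ks : List Q) (b : Bool) (cs : List Ex) : Bool :=
  List.rec (motive := fun _ => Bool) b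
    (fun c _ ih => evK K ks c fun X => Bool.rec (motive := fun _ => Bool) true ih (kz X)) cs

theorem consK_cons (K : ℕ) (ks : List Q) (b : Bool) (c : Ex) (cs : List Ex) :
    consK K ks b (c :: cs) = evK K ks c fun X =>
      Bool.rec (motive := fun _ => Bool) true (consK K ks b cs) (kz X) := rfl

def and2 (a b : Bool) : Bool := Bool.rec (motive := fun _ => Bool) false b a

theorem and2_true {a b : Bool} (h : and2 a b = true) : a = true ∧ b = true := by
  cases a
  · exact absurd (show false = true from h) (by decide)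
  · exact ⟨rfl, h⟩

/-- Alternatives. -/
noncomputable def altK (K : ℕ) (ks : List Q) (f : Q → Bool) (es : List Ex) : Bool :=
  List.rec (motive := fun _ => Bool) true (fun e _ ih => and2 (evK K ks e f) ih) es

theorem altK_cons (K : ℕ) (ks : List Q) (f : Q → Bool) (e : Ex) (es : List Ex) :
    altK K ks f (e :: es) = and2 (evK K ks e f) (altK K ks f es) := rfl

/-! ### tiling -/

/-- Tiling of a plane. -/
def tl (O R a : ℕ) : ℕ := Nat.mul (Nat.land a O) R

def tlq (O R : ℕ) (X : Q) : Q :=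
  ⟨⟨tl O R X.c0.m, tl O R X.c0.s⟩, ⟨tl O R X.c1.m, tl O R X.c1.s⟩, ⟨tl O R X.c2.m, tl O R X.c2.s⟩,
    ⟨tl O R X.c3.m, tl O R X.c3.s⟩⟩

noncomputable def tls (O R : ℕ) (rs : List Q) : (List Q → Bool) → Bool :=
  List.rec (motive := fun _ => (List Q → Bool) → Bool) (fun k => k [])
    (fun X _ ih k => ih fun l => fo (tlq O R X) fun Y => k (Y :: l)) rs

theorem tls_nil (O R : ℕ) (k : List Q → Bool) : tls O R [] k = k [] := rfl

theorem tls_cons (O R : ℕ) (X : Q) (rs : List Q) (k : List Q → Bool) :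
    tls O R (X :: rs) k = tls O R rs fun l => fo (tlq O R X) fun Y => k (Y :: l) := rfl

theorem tls_eq (O R : ℕ) (rs : List Q) (k : List Q → Bool) : tls O R rs k = k (rs.map (tlq O R)) := by
  induction rs generalizing k with
  | nil => rfl
  | cons X rs ih => rw [tls_cons, ih, fo_eq, List.map_cons]

/-- The new register `y`, lanes `i + N * t`, `t < 81`. -/
def yreg (N : ℕ) : Q := ⟨dgp N 4 0, dgp N 4 1, dgp N 4 2, dgp N 4 3⟩

/-- The first `N` lanes are dropped. -/
def qsr (N : ℕ) (X : Q) : Q :=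
  ⟨⟨Nat.shiftRight X.c0.m N, Nat.shiftRight X.c0.s N⟩, ⟨Nat.shiftRight X.c1.m N, Nat.shiftRight X.c1.s N⟩,
    ⟨Nat.shiftRight X.c2.m N, Nat.shiftRight X.c2.s N⟩, ⟨Nat.shiftRight X.c3.m N, Nat.shiftRight X.c3.s N⟩⟩

/-- `x ^ 79` -/
def p79 (y : Q) (k : Q → Bool) : Bool :=
  fo (qmul y y) fun y2 => fo (qfrob y2) fun y6 => fo (qfrob y6) fun y18 => fo (qfrob y18) fun y54 =>
    fo (qmul y54 y18) fun a => fo (qmul y6 y) fun b => fo (qmul a b) k

theorem p79_eq (y : Q) (k : Q → Bool) :
    p79 y k = k (((y.mul y).frob.frob.frob.mul (y.mul y).frob.frob).mul ((y.mul y).frob.mul y)) := by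
  simp only [p79, fo_eq, qmul_eq, qfrob_eq]

/-- Selection of registers. -/
noncomputable def sels (L : ℕ) (rs : List Q) (js : List ℕ) : List Q → (List Q → Bool) → Bool :=
  List.rec (motive := fun _ => List Q → (List Q → Bool) → Bool) (fun acc k => k acc)
    (fun j _ ih acc k => Bool.rec (motive := fun _ => Bool) false
      (Q.rec (motive := fun _ => Bool) (fun c0 c1 c2 c3 => ih (⟨c0, c1, c2, c3⟩ :: acc) k)
        (getr rs (Nat.sub L (Nat.succ j)))) (Nat.ble (Nat.succ j) L)) js

theorem sels_cons (L : ℕ) (rs : List Q) (j : ℕ) (js : List ℕ) (acc : List Q) (k : List Q → Bool) :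
    sels L rs (j :: js) acc k = Bool.rec (motive := fun _ => Bool) false
      (sels L rs js (getr rs (Nat.sub L (Nat.succ j)) :: acc) k) (Nat.ble (Nat.succ j) L) := rfl

/-- Compaction. -/
noncomputable def cmp (N m : ℕ) (rs : List Q) (k : ℕ → List Q → Bool) : Bool :=
  Cfsg.Agent.H516.BS.CM.comp N m rs k

/-! ### the machine -/

/-- **The machine.** `K = ks.length`, `L = ls.length`, `O = 2 ^ N - 1`. -/
noncomputable def run (p : Plan) : ℕ → List Q → ℕ → ℕ → ℕ → List Q → Bool :=
  Plan.rec (motive := fun _ => ℕ → List Q → ℕ → ℕ → ℕ → List Q → Bool)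
    -- kf
    (fun e _ ih K ks N O L ls => evK K ks e fun X => fc (Nat.succ K) fun K' => ih K' (X :: ks) N O L ls)
    -- kfl
    (fun cs _ ih K ks N O L ls => consK K ks (ih K ks N O L ls) cs)
    -- ksp
    (fun e _ _ ihp ihq K ks N O L ls => evK K ks e fun X =>
      Bool.rec (motive := fun _ => Bool) (ihq K ks N O L ls) (ihp K ks N O L ls) (kz X))
    -- alt
    (fun es _ ih K ks N O L ls => fc (Nat.succ K) fun K' => altK K ks (fun X => ih K' (X :: ks) N O L ls) es)
    -- or
    (fun _ _ ihp ihq K ks N O L ls => and2 (ihp K ks N O L ls) (ihq K ks N O L ls))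
    -- ex
    (fun _ ih K ks N O L ls => fc (rpu N 81) fun R => tls O R ls fun ls' =>
      fc (Nat.mul N 81) fun N' => fc (Nat.sub (Nat.pow 2 N') 1) fun O' => fo (yreg N) fun y => p79 y fun z =>
        fc (Nat.add L 2) fun L' => ih K ks N' O' L' (z :: y :: ls'))
    -- exn
    (fun _ ih K ks N O L ls => fc (rpu N 80) fun R => tls O R ls fun ls' =>
      fc (Nat.mul N 80) fun N' => fc (Nat.sub (Nat.pow 2 N') 1) fun O' => fo (yreg N) fun y' => fo (qsr N y') fun y =>
        p79 y fun z => fc (Nat.add L 2) fun L' => ih K ks N' O' L' (z :: y :: ls'))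
    -- df
    (fun e _ ih K ks N O L ls => evL K ks O L ls e fun X => fc (Nat.succ L) fun L' => ih K ks N O L' (X :: ls))
    -- fl
    (fun cs js _ ih K ks N O L ls => consL K ks O L ls cs 0 fun acc => fc (Nat.xor O (Nat.land acc O)) fun m =>
      Bool.rec (motive := fun _ => Bool)
        (sels L ls js [] fun ls1 => cmp N m ls1 fun N' ls' => fc (Nat.sub (Nat.pow 2 N') 1) fun O' =>
          fc js.length fun L' => ih K ks N' O' L' ls') true (Nat.beq m 0))
    -- sel
    (fun js _ ih K ks N O L ls => sels L ls js [] fun ls' => fc js.length fun L' => ih K ks N O L' ls')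
    -- leaf
    (fun ds K ks _ O L ls => leafL K ks O L ls ds) p

section
variable (K : ℕ) (ks : List Q) (N O L : ℕ) (ls : List Q)

theorem run_kf (e : Ex) (p : Plan) : run (.kf e p) K ks N O L ls =
    evK K ks e fun X => fc (Nat.succ K) fun K' => run p K' (X :: ks) N O L ls := rfl
theorem run_kfl (cs : List Ex) (p : Plan) : run (.kfl cs p) K ks N O L ls = consK K ks (run p K ks N O L ls) cs := rfl
theorem run_ksp (e : Ex) (p q : Plan) : run (.ksp e p q) K ks N O L ls =
    evK K ks e fun X => Bool.rec (motive := fun _ => Bool) (run q K ks N O L ls) (run p K ks N O L ls) (kz X) := rfl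
theorem run_alt (es : List Ex) (p : Plan) : run (.alt es p) K ks N O L ls =
    fc (Nat.succ K) fun K' => altK K ks (fun X => run p K' (X :: ks) N O L ls) es := rfl
theorem run_or (p q : Plan) : run (.or p q) K ks N O L ls = and2 (run p K ks N O L ls) (run q K ks N O L ls) := rfl
theorem run_ex (p : Plan) : run (.ex p) K ks N O L ls = fc (rpu N 81) fun R => tls O R ls fun ls' =>
      fc (Nat.mul N 81) fun N' => fc (Nat.sub (Nat.pow 2 N') 1) fun O' => fo (yreg N) fun y => p79 y fun z =>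
        fc (Nat.add L 2) fun L' => run p K ks N' O' L' (z :: y :: ls') := rfl
theorem run_exn (p : Plan) : run (.exn p) K ks N O L ls = fc (rpu N 80) fun R => tls O R ls fun ls' =>
      fc (Nat.mul N 80) fun N' => fc (Nat.sub (Nat.pow 2 N') 1) fun O' => fo (yreg N) fun y' => fo (qsr N y') fun y =>
        p79 y fun z => fc (Nat.add L 2) fun L' => run p K ks N' O' L' (z :: y :: ls') := rfl
theorem run_df (e : Ex) (p : Plan) : run (.df e p) K ks N O L ls =
    evL K ks O L ls e fun X => fc (Nat.succ L) fun L' => run p K ks N O L' (X :: ls) := rfl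
theorem run_fl (cs : List Ex) (js : List ℕ) (p : Plan) : run (.fl cs js p) K ks N O L ls =
    consL K ks O L ls cs 0 fun acc => fc (Nat.xor O (Nat.land acc O)) fun m =>
      Bool.rec (motive := fun _ => Bool)
        (sels L ls js [] fun ls1 => cmp N m ls1 fun N' ls' => fc (Nat.sub (Nat.pow 2 N') 1) fun O' =>
          fc js.length fun L' => run p K ks N' O' L' ls') true (Nat.beq m 0) := rfl
theorem run_sel (js : List ℕ) (p : Plan) : run (.sel js p) K ks N O L ls =
    sels L ls js [] fun ls' => fc js.length fun L' => run p K ks N O L' ls' := rfl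
theorem run_leaf (ds : List Ex) : run (.leaf ds) K ks N O L ls = leafL K ks O L ls ds := rfl
end

/-- start: the trits of `d` -/
noncomputable def ini (d : ℕ) (n : ℕ) : ℕ → List Q → (List Q → Bool) → Bool :=
  Nat.rec (motive := fun _ => ℕ → List Q → (List Q → Bool) → Bool) (fun _ rs k => k rs)
    (fun _ ih j rs k => fc (tc 1 (dg d j)).m fun a => fc (tc 1 (dg d j)).s fun b => fc (Nat.succ j) fun j' =>
      ih j' (⟨⟨a, b⟩, ⟨0, 0⟩, ⟨0, 0⟩, ⟨0, 0⟩⟩ :: rs) k) n

/-- **The range check**: the plan is run for all `d` in `[a, a + n)` with the 7 base 3 digits of `d` as scalars. -/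
noncomputable def rng (p : Plan) (a n : ℕ) : Bool :=
  Nat.rec (motive := fun _ => Bool) true
    (fun m ih => and2 (fc (Nat.add a m) fun d => ini d 7 0 [] fun ks => run p 7 ks 1 1 0 []) ih) n

theorem rng_succ (p : Plan) (a n : ℕ) : rng p a (n + 1) =
    and2 (fc (Nat.add a n) fun d => ini d 7 0 [] fun ks => run p 7 ks 1 1 0 []) (rng p a n) := rfl

theorem ini_succ (d n j : ℕ) (rs : List Q) (k : List Q → Bool) : ini d (n + 1) j rs k =
    fc (tc 1 (dg d j)).m fun a => fc (tc 1 (dg d j)).s fun b => fc (Nat.succ j) fun j' =>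
      ini d n j' (⟨⟨a, b⟩, ⟨0, 0⟩, ⟨0, 0⟩, ⟨0, 0⟩⟩ :: rs) k := rfl

end Cfsg.Agent.H728.PM
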