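import Cfsg.Agent.H728.PM.Run
import Cfsg.Agent.H138.E8L.Trit

/-!
# The plan machine: soundness (helper728, S5925)
-/

set_option autoImplicit false

namespace Cfsg.Agent.H728.PM

open Cfsg.Agent.H516.BS Cfsg.Agent.H728.BS

variable {F : Type*} [Field F] [CharP F 3] {g : F} {i : ℕ}

/-- The registers represent the values in lane `i`. -/
def GoodL (g : F) (i : ℕ) (ρ : List F) (rs : List Q) : Prop := List.Forall₂ (R g i) rs ρ.reverse

theorem GoodL.snoc {ρ : List F} {rs : List Q} (h : GoodL g i ρ rs) {X : Q} {u : F} (hX : R g i X u) :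
    GoodL g i (ρ ++ [u]) (X :: rs) := by
  unfold GoodL
  rw [List.reverse_append, List.reverse_singleton, List.singleton_append]
  exact List.Forall₂.cons hX h

theorem GoodL.nil : GoodL g i [] [] := List.Forall₂.nil

theorem getr_forall {rs : List Q} {σ : List F} (h : List.Forall₂ (R g i) rs σ) {n : ℕ} (hn : n < σ.length) :
    R g i (getr rs n) (σ.getD n 0) := by
  induction h generalizing n with
  | nil => simp at hn
  | cons hX h ih =>
    cases n with
    | zero => exact hX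
    | succ n => exact ih (by simpa using hn)

theorem GoodL.get {ρ : List F} {rs : List Q} (h : GoodL g i ρ rs) {j : ℕ} (hj : j < ρ.length) :
    R g i (getr rs (ρ.length - (j + 1))) (ρ.getD j 0) := by
  have h1 := getr_forall (n := ρ.length - (j + 1)) h (by rw [List.length_reverse]; omega)
  have h2 : ρ.reverse.getD (ρ.length - (j + 1)) 0 = ρ.getD j 0 := by
    rw [List.getD_eq_getElem _ _ (by rw [List.length_reverse]; omega), List.getD_eq_getElem _ _ hj,
      List.getElem_reverse]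
    congr 1
    omega
  rwa [h2] at h1

theorem GoodL.map {ρ : List F} {rs : List Q} (h : GoodL g i ρ rs) {i' : ℕ} {f : Q → Q}
    (hf : ∀ X u, R g i X u → R g i' (f X) u) : GoodL g i' ρ (rs.map f) := by
  unfold GoodL at h ⊢
  rw [List.forall₂_map_left_iff]
  exact h.imp fun X u hX => hf X u hX

theorem brec_false {b c : Bool} (h : Bool.rec (motive := fun _ => Bool) false c b = true) : b = true ∧ c = true := by
  cases b
  · exact absurd (show false = true from h) (by decide)
  · exact ⟨rfl, h⟩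

theorem gk_sound {ρ : List F} {rs : List Q} (hr : GoodL g i ρ rs) (j : ℕ) (k : Q → Bool)
    (h : gk ρ.length rs j k = true) : ∃ X, R g i X (ρ.getD j 0) ∧ k X = true := by
  obtain ⟨h1, h2⟩ := brec_false h
  exact ⟨_, hr.get (Nat.le_of_ble_eq_true h1), h2⟩

theorem Rt_qb {O : ℕ} (hO : O.testBit i = true) {x : T} {u : ZMod 3} (hx : x.Rt 0 u) :
    T.Rt i ⟨Nat.mul (Nat.land x.m 1) O, Nat.mul (Nat.land x.s 1) O⟩ u := by
  have key : ∀ a : ℕ, (Nat.mul (Nat.land a 1) O).testBit i = a.testBit 0 := by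
    intro a
    have h1 : Nat.land a 1 = a % 2 := Nat.and_one_is_mod a
    show (Nat.land a 1 * O).testBit i = _
    rw [h1, Nat.testBit_zero]
    rcases Nat.mod_two_eq_zero_or_one a with h | h
    · rw [h, zero_mul, Nat.zero_testBit]
      rfl
    · rw [h, one_mul, hO]
      rfl
  exact ⟨(key _).trans hx.1, (key _).trans hx.2⟩

theorem R_qb {O : ℕ} (hO : O.testBit i = true) {X : Q} {u : F} (hX : R g 0 X u) : R g i (qb O X) u := by
  obtain ⟨c, ⟨a0, a1, a2, a3⟩, hu⟩ := hX
  exact ⟨c, ⟨Rt_qb hO a0, Rt_qb hO a1, Rt_qb hO a2, Rt_qb hO a3⟩, hu⟩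

theorem gkb_sound {O : ℕ} (hO : O.testBit i = true) {ρ : List F} {rs : List Q} (hr : GoodL g 0 ρ rs) (j : ℕ)
    (k : Q → Bool) (h : gkb O ρ.length rs j k = true) : ∃ X, R g i X (ρ.getD j 0) ∧ k X = true := by
  obtain ⟨h1, h2⟩ := brec_false h
  rw [fo_eq] at h2
  exact ⟨_, R_qb hO (hr.get (Nat.le_of_ble_eq_true h1)), h2⟩

theorem evG_sound (hg : g ^ 4 = -g + 1) {O : ℕ} (hO : O.testBit i = true) {ks ls : List F}
    {fk fv : ℕ → (Q → Bool) → Bool}
    (hk : ∀ j k, fk j k = true → ∃ X, R g i X (ks.getD j 0) ∧ k X = true)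
    (hv : ∀ j k, fv j k = true → ∃ X, R g i X (ls.getD j 0) ∧ k X = true) :
    ∀ (e : Ex) (k : Q → Bool), evG O fk fv e k = true → ∃ X, R g i X (e.eval g ks ls) ∧ k X = true := by
  intro e
  induction e with
  | k j => exact fun k h => hk j k h
  | v j => exact fun k h => hv j k h
  | pw n =>
    intro k h
    rw [evG_pw, fo_eq] at h
    exact ⟨_, R_pw hg hO n, h⟩
  | zero =>
    intro k h
    exact ⟨_, R.zero i, h⟩
  | add x y ihx ihy =>
    intro k h
    rw [evG_add] at h
    obtain ⟨X, hX, h⟩ := ihx _ h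
    obtain ⟨Y, hY, h⟩ := ihy _ h
    rw [fo_eq, qadd_eq] at h
    exact ⟨_, hX.add hY, h⟩
  | sub x y ihx ihy =>
    intro k h
    rw [evG_sub] at h
    obtain ⟨X, hX, h⟩ := ihx _ h
    obtain ⟨Y, hY, h⟩ := ihy _ h
    rw [fo_eq, qsub_eq] at h
    exact ⟨_, hX.sub hY, h⟩
  | neg x ihx =>
    intro k h
    rw [evG_neg] at h
    obtain ⟨X, hX, h⟩ := ihx _ h
    rw [fo_eq, qneg_eq] at h
    exact ⟨_, hX.neg, h⟩
  | mul x y ihx ihy =>
    intro k h
    rw [evG_mul] at h
    obtain ⟨X, hX, h⟩ := ihx _ h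
    obtain ⟨Y, hY, h⟩ := ihy _ h
    rw [fo_eq, qmul_eq] at h
    exact ⟨_, hX.mul hg hY, h⟩
  | fr x ihx =>
    intro k h
    rw [evG_fr] at h
    obtain ⟨X, hX, h⟩ := ihx _ h
    rw [fo_eq, qfrob_eq] at h
    exact ⟨_, hX.frob hg, h⟩

theorem evK_sound (hg : g ^ 4 = -g + 1) {ks : List F} {kq : List Q} (hr : GoodL g 0 ks kq) (e : Ex) (k : Q → Bool)
    (h : evK ks.length kq e k = true) : ∃ X, R g 0 X (e.eval g ks []) ∧ k X = true :=
  evG_sound hg (O := 1) (by decide) (gk_sound hr) (fun _ _ h => absurd h (by decide)) e k h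

theorem evL_sound (hg : g ^ 4 = -g + 1) {O : ℕ} (hO : O.testBit i = true) {ks ls : List F} {kq lq : List Q}
    (hk : GoodL g 0 ks kq) (hl : GoodL g i ls lq) (e : Ex) (k : Q → Bool)
    (h : evL ks.length kq O ls.length lq e k = true) : ∃ X, R g i X (e.eval g ks ls) ∧ k X = true :=
  evG_sound hg hO (gkb_sound hO hk) (gk_sound hl) e k h

theorem consL_sound (hg : g ^ 4 = -g + 1) {O : ℕ} (hO : O.testBit i = true) {ks ls : List F} {kq lq : List Q}
    (hk : GoodL g 0 ks kq) (hl : GoodL g i ls lq) :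
    ∀ (cs : List Ex) (acc : ℕ) (k : ℕ → Bool), (∀ c ∈ cs, c.eval g ks ls = 0) →
      consL ks.length kq O ls.length lq cs acc k = true →
      ∃ acc' : ℕ, acc'.testBit i = acc.testBit i ∧ k acc' = true := by
  intro cs
  induction cs with
  | nil =>
    intro acc k _ h
    exact ⟨acc, rfl, h⟩
  | cons c cs ih =>
    intro acc k hc h
    rw [consL_cons] at h
    obtain ⟨X, hX, h⟩ := evL_sound hg hO hk hl _ _ h
    rw [fc_eq] at h
    obtain ⟨acc', h1, h2⟩ := ih _ _ (fun c' hc' => hc c' (List.mem_cons_of_mem _ hc')) h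
    refine ⟨acc', ?_, h2⟩
    rw [h1]
    show (acc ||| X.nz).testBit i = _
    rw [Nat.testBit_or, hX.nz hg (hc c List.mem_cons_self), Bool.or_false]

theorem R.eq_zero {X : Q} {u : F} (hX : R g i X u) (h : X.nz.testBit i = false) : u = 0 := by
  obtain ⟨c, ⟨a0, a1, a2, a3⟩, rfl⟩ := hX
  rw [Q.nz, Nat.testBit_or, Nat.testBit_or, Nat.testBit_or, a0.1, a1.1, a2.1, a3.1] at h
  simp only [Bool.or_eq_false_iff, decide_eq_false_iff_not, not_not] at h
  obtain ⟨⟨h0, h1⟩, h2, h3⟩ := h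
  simp [toF, h0, h1, h2, h3]

theorem leafL_sound (hg : g ^ 4 = -g + 1) {O : ℕ} (hO : O.testBit i = true) {ks ls : List F} {kq lq : List Q}
    (hk : GoodL g 0 ks kq) (hl : GoodL g i ls lq) :
    ∀ ds : List Ex, leafL ks.length kq O ls.length lq ds = true → ∀ d ∈ ds, d.eval g ks ls = 0 := by
  intro ds
  induction ds with
  | nil =>
    intro _ d hd
    exact absurd hd List.not_mem_nil
  | cons d ds ih =>
    intro h
    rw [leafL_cons] at h
    obtain ⟨X, hX, h⟩ := evL_sound hg hO hk hl _ _ h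
    obtain ⟨h0, h⟩ := brec_false h
    intro d' hd'
    rcases List.mem_cons.1 hd' with rfl | hd'
    · apply R.eq_zero hX
      rw [← qnz_eq, Nat.eq_of_beq_eq_true h0, Nat.zero_testBit]
    · exact ih h d' hd'

/-- zero test of scalars -/
theorem kz_true {X : Q} {u : F} (hX : R g 0 X u) (h : kz X = true) : u = 0 := by
  apply R.eq_zero hX
  have h1 : Nat.land X.nz 1 = X.nz % 2 := Nat.and_one_is_mod _
  have h2 : Nat.land X.nz 1 = 0 := Nat.eq_of_beq_eq_true h
  rw [h1] at h2
  rw [Nat.testBit_zero, h2]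
  rfl

theorem kz_false (hg : g ^ 4 = -g + 1) {X : Q} {u : F} (hX : R g 0 X u) (h : kz X = false) : u ≠ 0 := by
  intro hu
  have h0 := hX.nz hg hu
  have h1 : Nat.land X.nz 1 = X.nz % 2 := Nat.and_one_is_mod _
  rw [Nat.testBit_zero, decide_eq_false_iff_not] at h0
  have h2 : X.nz % 2 = 0 := by omega
  have h3 : kz X = true := by
    show Nat.beq (Nat.land X.nz 1) 0 = true
    rw [h1, h2]
    rfl
  rw [h3] at h
  exact absurd h (by decide)

theorem consK_sound (hg : g ^ 4 = -g + 1) {ks : List F} {kq : List Q} (hk : GoodL g 0 ks kq) {b : Bool} :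
    ∀ cs : List Ex, (∀ c ∈ cs, c.eval g ks [] = 0) → consK ks.length kq b cs = true → b = true := by
  intro cs
  induction cs with
  | nil => exact fun _ h => h
  | cons c cs ih =>
    intro hc h
    rw [consK_cons] at h
    obtain ⟨X, hX, h⟩ := evK_sound hg hk _ _ h
    rw [hc c List.mem_cons_self] at hX
    cases hz : kz X with
    | false => exact absurd rfl (kz_false hg hX hz)
    | true =>
      rw [hz] at h
      exact ih (fun c' hc' => hc c' (List.mem_cons_of_mem _ hc')) h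

omit [Field F] [CharP F 3] in
theorem altK_sound {ks : List F} {kq : List Q} {f : Q → Bool} :
    ∀ {es : List Ex} {e : Ex}, e ∈ es → altK ks.length kq f es = true → evK ks.length kq e f = true := by
  intro es
  induction es with
  | nil => exact fun h => absurd h List.not_mem_nil
  | cons e' es ih =>
    intro e he h
    rw [altK_cons] at h
    obtain ⟨h1, h2⟩ := and2_true h
    rcases List.mem_cons.1 he with rfl | he
    · exact h1
    · exact ih he h2

theorem cmp_sound {N m : ℕ} {rs : List Q} {k : ℕ → List Q → Bool} {ρ : List F} (h : cmp N m rs k = true) (hi : i < N)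
    (hm : m.testBit i = true) (hr : GoodL g i ρ rs) :
    ∃ N' rs' i', i' < N' ∧ k N' rs' = true ∧ GoodL g i' ρ rs' := by
  obtain ⟨N', rs', i', h1, h2, h3⟩ := Cfsg.Agent.H516.BS.CM.comp_sound h hi hm
  refine ⟨N', rs', i', h1, h2, ?_⟩
  unfold GoodL at hr ⊢
  clear h h2
  revert hr
  generalize ρ.reverse = σ
  intro hr
  induction hr generalizing rs' with
  | nil => cases h3; exact List.Forall₂.nil
  | cons hX _ ih =>
    cases h3 with
    | cons h4 h5 =>
      refine List.Forall₂.cons ?_ (ih _ h5)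
      obtain ⟨c, hc, hu⟩ := hX
      exact ⟨c, h4 c hc, hu⟩

theorem Rt_tl {N t b : ℕ} (hi : i < N) (ht : t < b) {x : T} {u : ZMod 3} (hx : x.Rt i u) :
    T.Rt (i + N * t) ⟨tl (2 ^ N - 1) (rpu N b) x.m, tl (2 ^ N - 1) (rpu N b) x.s⟩ u := by
  have key : ∀ a : ℕ, (tl (2 ^ N - 1) (rpu N b) a).testBit (i + N * t) = a.testBit i := by
    intro a
    show ((a &&& (2 ^ N - 1)) * rpu N b).testBit (i + N * t) = _
    rw [tile_testBit (by omega) (lt_of_le_of_lt Nat.and_le_right (by
      have : 0 < 2 ^ N := by positivity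
      omega)) _ _ _ hi ht, Nat.testBit_and, Nat.testBit_two_pow_sub_one, decide_eq_true hi, Bool.and_true]
  exact ⟨(key _).trans hx.1, (key _).trans hx.2⟩

theorem Rq_tl {N t b : ℕ} (hi : i < N) (ht : t < b) {X : Q} {u : F} (hX : R g i X u) :
    R g (i + N * t) (tlq (2 ^ N - 1) (rpu N b) X) u := by
  obtain ⟨c, ⟨a0, a1, a2, a3⟩, hu⟩ := hX
  exact ⟨c, ⟨Rt_tl hi ht a0, Rt_tl hi ht a1, Rt_tl hi ht a2, Rt_tl hi ht a3⟩, hu⟩

theorem exists_K4 (hg : g ^ 4 = -g + 1) {y : F} (hy : y ^ 81 = y) : ∃ c : K4, y = toF g c := by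
  have hg' : g ^ 4 = 1 - g := by rw [hg]; ring
  obtain ⟨a, b, c, d, ha, hb, hc, hd, h⟩ := Cfsg.Agent.H138.E8L.exists_trits hg' hy
  have key : ∀ a : F, Cfsg.Agent.H138.E8L.IsTrit a → ∃ z : ZMod 3, a = io F z := by
    rintro a (rfl | rfl | rfl)
    · exact ⟨0, by simp⟩
    · exact ⟨1, by simp⟩
    · exact ⟨-1, by simp⟩
  obtain ⟨z0, rfl⟩ := key a ha
  obtain ⟨z1, rfl⟩ := key b hb
  obtain ⟨z2, rfl⟩ := key c hc
  obtain ⟨z3, rfl⟩ := key d hd
  exact ⟨⟨z0, z1, z2, z3⟩, h⟩

theorem yreg_R (hg : g ^ 4 = -g + 1) {N : ℕ} (hi : i < N) {y : F} (hy : y ^ 81 = y) :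
    ∃ t < 81, R g (i + N * t) (yreg N) y ∧ (y ≠ 0 → 0 < t) := by
  obtain ⟨c, rfl⟩ := exists_K4 hg hy
  obtain ⟨t, ht, hd⟩ := exists_digits (fun j => if j = 0 then c.c0.val else if j = 1 then c.c1.val else
    if j = 2 then c.c2.val else c.c3.val) (fun j => by
      split_ifs <;> exact ZMod.val_lt _) 4
  have h81 : (3 : ℕ) ^ 4 = 81 := by norm_num
  refine ⟨t, by rw [← h81]; exact ht, ⟨c, ⟨?_, ?_, ?_, ?_⟩, rfl⟩, ?_⟩
  · have := dgp_rt hi (show 0 < 4 by norm_num) ht
    rw [hd 0 (by norm_num)] at this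
    show T.Rt (i + N * t) (dgp N 4 0) _
    simpa using this
  · have := dgp_rt hi (show 1 < 4 by norm_num) ht
    rw [hd 1 (by norm_num)] at this
    show T.Rt (i + N * t) (dgp N 4 1) _
    simpa using this
  · have := dgp_rt hi (show 2 < 4 by norm_num) ht
    rw [hd 2 (by norm_num)] at this
    show T.Rt (i + N * t) (dgp N 4 2) _
    simpa using this
  · have := dgp_rt hi (show 3 < 4 by norm_num) ht
    rw [hd 3 (by norm_num)] at this
    show T.Rt (i + N * t) (dgp N 4 3) _
    simpa using this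
  · intro hne
    rcases Nat.eq_zero_or_pos t with rfl | h
    · exfalso
      apply hne
      have e0 := hd 0 (by norm_num)
      have e1 := hd 1 (by norm_num)
      have e2 := hd 2 (by norm_num)
      have e3 := hd 3 (by norm_num)
      have z : ∀ j, dg 0 j = 0 := by
        intro j
        show (0 / 3 ^ j) % 3 = 0
        rw [Nat.zero_div]
      rw [z] at e0 e1 e2 e3
      have f0 : c.c0 = 0 := (ZMod.val_eq_zero _).1 (by simpa using e0.symm)
      have f1 : c.c1 = 0 := (ZMod.val_eq_zero _).1 (by simpa using e1.symm)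
      have f2 : c.c2 = 0 := (ZMod.val_eq_zero _).1 (by simpa using e2.symm)
      have f3 : c.c3 = 0 := (ZMod.val_eq_zero _).1 (by simpa using e3.symm)
      simp [toF, f0, f1, f2, f3]
    · exact h

theorem R_qsr {N j : ℕ} {X : Q} {u : F} (hX : R g (j + N) X u) : R g j (qsr N X) u := by
  obtain ⟨c, ⟨a0, a1, a2, a3⟩, hu⟩ := hX
  have key : ∀ (a : ℕ) (b : Bool), a.testBit (j + N) = b → (Nat.shiftRight a N).testBit j = b := by
    intro a b h
    show (a >>> N).testBit j = b
    rw [Nat.testBit_shiftRight, Nat.add_comm, h]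
  exact ⟨c, ⟨⟨key _ _ a0.1, key _ _ a0.2⟩, ⟨key _ _ a1.1, key _ _ a1.2⟩, ⟨key _ _ a2.1, key _ _ a2.2⟩,
    ⟨key _ _ a3.1, key _ _ a3.2⟩⟩, hu⟩

theorem p79_sound (hg : g ^ 4 = -g + 1) {Y : Q} {y : F} (hY : R g i Y y) {k : Q → Bool} (h : p79 Y k = true) :
    ∃ Z, R g i Z (y ^ 79) ∧ k Z = true := by
  rw [p79_eq] at h
  have hZ := ((((hY.mul hg hY).frob hg).frob hg).frob hg |>.mul hg (((hY.mul hg hY).frob hg).frob hg)).mul hg
    (((hY.mul hg hY).frob hg).mul hg hY)
  have e79 : ((((y * y) ^ 3) ^ 3) ^ 3 * (((y * y) ^ 3) ^ 3)) * (((y * y) ^ 3) * y) = y ^ 79 := by ring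
  rw [e79] at hZ
  exact ⟨_, hZ, h⟩

theorem sels_sound {rs : List Q} {ρ : List F} (hr : GoodL g i ρ rs) :
    ∀ (js : List ℕ) (acc : List Q) (σ : List F) (k : List Q → Bool), GoodL g i σ acc →
      sels ρ.length rs js acc k = true → ∃ rs', k rs' = true ∧ GoodL g i (σ ++ js.map fun j => ρ.getD j 0) rs' := by
  intro js
  induction js with
  | nil =>
    intro acc σ k ha h
    exact ⟨acc, h, by simpa using ha⟩
  | cons j js ih =>
    intro acc σ k ha h
    rw [sels_cons] at h
    obtain ⟨hj, h⟩ := brec_false h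
    obtain ⟨rs', h1, h2⟩ := ih _ _ k (ha.snoc (hr.get (Nat.le_of_ble_eq_true hj))) h
    refine ⟨rs', h1, ?_⟩
    rw [List.map_cons]
    rwa [List.append_assoc, List.singleton_append] at h2

theorem sels_sound' {rs : List Q} {ρ : List F} (hr : GoodL g i ρ rs) (js : List ℕ) (k : List Q → Bool)
    (h : sels ρ.length rs js [] k = true) : ∃ rs', k rs' = true ∧ GoodL g i (js.map fun j => ρ.getD j 0) rs' := by
  obtain ⟨rs', h1, h2⟩ := sels_sound hr js [] [] _ GoodL.nil h
  rw [List.nil_append] at h2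
  exact ⟨rs', h1, h2⟩

/-- **Soundness of the machine.** -/
theorem run_sound (hg : g ^ 4 = -g + 1) {G : Prop} :
    ∀ (p : Plan) {N i : ℕ} {kq lq : List Q} {ks ls : List F}, run p ks.length kq N (2 ^ N - 1) ls.length lq = true →
      i < N → GoodL g 0 ks kq → GoodL g i ls lq → p.WP g ks ls G → G := by
  intro p
  induction p with
  | kf e p ih =>
    intro N i kq lq ks ls h hi hk hl hw
    rw [run_kf] at h
    obtain ⟨X, hX, h⟩ := evK_sound hg hk _ _ h
    rw [fc_eq] at h
    refine ih (ks := ks ++ [e.eval g ks []]) ?_ hi (hk.snoc hX) hl hw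
    rw [List.length_append]
    exact h
  | kfl cs p ih =>
    intro N i kq lq ks ls h hi hk hl hw
    rw [run_kfl] at h
    exact ih (consK_sound hg hk cs hw.1 h) hi hk hl hw.2
  | ksp e p q ihp ihq =>
    intro N i kq lq ks ls h hi hk hl hw
    rw [run_ksp] at h
    obtain ⟨X, hX, h⟩ := evK_sound hg hk _ _ h
    cases hz : kz X with
    | false =>
      rw [hz] at h
      exact ihq h hi hk hl (hw.2 (kz_false hg hX hz))
    | true =>
      rw [hz] at h
      exact ihp h hi hk hl (hw.1 (kz_true hX hz))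
  | alt es p ih =>
    intro N i kq lq ks ls h hi hk hl hw
    rw [run_alt, fc_eq] at h
    obtain ⟨e, he, hw⟩ := hw
    obtain ⟨X, hX, h⟩ := evK_sound hg hk _ _ (altK_sound he h)
    refine ih (ks := ks ++ [e.eval g ks []]) ?_ hi (hk.snoc hX) hl hw
    rw [List.length_append]
    exact h
  | or p q ihp ihq =>
    intro N i kq lq ks ls h hi hk hl hw
    rw [run_or] at h
    obtain ⟨h1, h2⟩ := and2_true h
    rcases hw with hw | hw
    · exact ihp h1 hi hk hl hw
    · exact ihq h2 hi hk hl hw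
  | ex p ih =>
    intro N i kq lq ks ls h hi hk hl hw
    obtain ⟨y, hy, hw⟩ := hw
    rw [run_ex, fc_eq, tls_eq, fc_eq, fc_eq, fo_eq] at h
    obtain ⟨t, ht, hY, -⟩ := yreg_R hg hi hy
    obtain ⟨Z, hZ, h⟩ := p79_sound hg hY h
    rw [fc_eq] at h
    have hlt : i + N * t < N * 81 := by
      have : N * (t + 1) ≤ N * 81 := Nat.mul_le_mul_left _ ht
      rw [mul_add, mul_one] at this
      omega
    have hr' := hl.map fun X u hX => Rq_tl (b := 81) hi ht hX
    have h2 := (hr'.snoc hY).snoc hZ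
    rw [List.append_assoc, List.singleton_append] at h2
    refine ih (ls := ls ++ [y, y ^ 79]) ?_ hlt hk h2 hw
    rw [List.length_append]
    exact h
  | exn p ih =>
    intro N i kq lq ks ls h hi hk hl hw
    obtain ⟨y, hy, hw⟩ := hw
    rw [run_exn, fc_eq, tls_eq, fc_eq, fc_eq, fo_eq, fo_eq] at h
    have hy0 : y ≠ 0 := by
      rintro rfl
      rw [zero_pow (by norm_num)] at hy
      exact zero_ne_one hy
    obtain ⟨t, ht, hY, ht0⟩ := yreg_R hg hi (y := y) (by rw [pow_succ, hy, one_mul])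
    obtain ⟨t, rfl⟩ : ∃ s, t = s + 1 := ⟨t - 1, by have := ht0 hy0; omega⟩
    have hY' : R g (i + N * t) (qsr N (yreg N)) y := R_qsr (by
      rw [mul_add, mul_one, ← add_assoc] at hY
      exact hY)
    obtain ⟨Z, hZ, h⟩ := p79_sound hg hY' h
    rw [fc_eq] at h
    have ht' : t < 80 := by omega
    have hlt : i + N * t < N * 80 := by
      have : N * (t + 1) ≤ N * 80 := Nat.mul_le_mul_left _ ht'
      rw [mul_add, mul_one] at this
      omega
    have hr' := hl.map fun X u hX => Rq_tl (b := 80) hi ht' hX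
    have h2 := (hr'.snoc hY').snoc hZ
    rw [List.append_assoc, List.singleton_append] at h2
    refine ih (ls := ls ++ [y, y ^ 79]) ?_ hlt hk h2 hw
    rw [List.length_append]
    exact h
  | df e p ih =>
    intro N i kq lq ks ls h hi hk hl hw
    rw [run_df] at h
    have hO : (2 ^ N - 1).testBit i = true := by rw [Nat.testBit_two_pow_sub_one]; exact decide_eq_true hi
    obtain ⟨X, hX, h⟩ := evL_sound hg hO hk hl _ _ h
    rw [fc_eq] at h
    refine ih (ls := ls ++ [e.eval g ks ls]) ?_ hi hk (hl.snoc hX) hw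
    rw [List.length_append]
    exact h
  | fl cs js p ih =>
    intro N i kq lq ks ls h hi hk hl hw
    rw [run_fl] at h
    have hO : (2 ^ N - 1).testBit i = true := by rw [Nat.testBit_two_pow_sub_one]; exact decide_eq_true hi
    obtain ⟨acc, h1, h2⟩ := consL_sound hg hO hk hl _ _ _ hw.1 h
    rw [fc_eq] at h2
    have hm : (Nat.xor (2 ^ N - 1) (Nat.land acc (2 ^ N - 1))).testBit i = true := by
      show ((2 ^ N - 1) ^^^ (acc &&& (2 ^ N - 1))).testBit i = true
      rw [Nat.testBit_xor, Nat.testBit_and, hO, h1, Nat.zero_testBit]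
      rfl
    generalize Nat.xor (2 ^ N - 1) (Nat.land acc (2 ^ N - 1)) = m at hm h2
    cases hz : Nat.beq m 0 with
    | true =>
      rw [Nat.eq_of_beq_eq_true hz, Nat.zero_testBit] at hm
      exact absurd hm (by decide)
    | false =>
      rw [hz] at h2
      obtain ⟨ls1, h3, h4⟩ := sels_sound' hl js _ h2
      obtain ⟨N', ls', i', h5, h6, h7⟩ := cmp_sound h3 hi hm h4
      rw [fc_eq, fc_eq] at h6
      refine ih (ls := js.map fun j => ls.getD j 0) ?_ h5 hk h7 hw.2
      rw [List.length_map]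
      exact h6
  | sel js p ih =>
    intro N i kq lq ks ls h hi hk hl hw
    rw [run_sel] at h
    obtain ⟨rs', h1, h2⟩ := sels_sound' hl js _ h
    rw [fc_eq] at h1
    refine ih (ls := js.map fun j => ls.getD j 0) ?_ hi hk h2 hw
    rw [List.length_map]
    exact h1
  | leaf ds =>
    intro N i kq lq ks ls h hi hk hl hw
    rw [run_leaf] at h
    exact hw (leafL_sound hg (by rw [Nat.testBit_two_pow_sub_one]; exact decide_eq_true hi) hk hl ds h)

theorem ini_sound (d : ℕ) :
    ∀ (n j : ℕ) (rs : List Q) (σ : List F) (k : List Q → Bool), GoodL g 0 σ rs → ini d n j rs k = true →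
      ∃ rs', k rs' = true ∧ GoodL g 0 (σ ++ (List.range' j n).map fun j => io F ((dg d j : ℕ) : ZMod 3)) rs' := by
  intro n
  induction n with
  | zero =>
    intro j rs σ k hr h
    exact ⟨rs, h, by simpa using hr⟩
  | succ n ih =>
    intro j rs σ k hr h
    have hX : R g 0 ⟨tc 1 (dg d j), ⟨0, 0⟩, ⟨0, 0⟩, ⟨0, 0⟩⟩ (io F ((dg d j : ℕ) : ZMod 3)) :=
      ⟨⟨((dg d j : ℕ) : ZMod 3), 0, 0, 0⟩, ⟨rt_tc (by decide) (dg_lt d j), T.Rt.zero 0, T.Rt.zero 0, T.Rt.zero 0⟩,
        by simp [toF]⟩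
    rw [ini_succ, fc_eq, fc_eq, fc_eq] at h
    obtain ⟨rs', h1, h2⟩ := ih (j + 1) _ _ k (hr.snoc hX) h
    refine ⟨rs', h1, ?_⟩
    rw [List.range'_succ, List.map_cons]
    rwa [List.append_assoc, List.singleton_append] at h2

theorem rng_step {p : Plan} {a n d : ℕ} (h : rng p a n = true) (h1 : a ≤ d) (h2 : d < a + n) :
    (ini d 7 0 [] fun ks => run p 7 ks 1 1 0 []) = true := by
  induction n with
  | zero => omega
  | succ n ih =>
    rw [rng_succ, fc_eq] at h
    obtain ⟨h3, h4⟩ := and2_true h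
    rcases Nat.lt_succ_iff_lt_or_eq.1 (show d < a + n + 1 from h2) with h5 | h5
    · exact ih h4 h5
    · subst h5
      exact h3

/-- **Soundness of the range checks.** -/
theorem rng_sound (hg : g ^ 4 = -g + 1) {G : Prop} {p : Plan}
    (H : ∀ d < 2187, ∃ a n, a ≤ d ∧ d < a + n ∧ rng p a n = true) {ks : List F} (hl : ks.length = 7)
    (ht : ∀ x ∈ ks, x = 0 ∨ x = 1 ∨ x = -1) (hw : p.WP g ks [] G) : G := by
  have key : ∀ a : F, (a = 0 ∨ a = 1 ∨ a = -1) → ∃ z : ℕ, z < 3 ∧ a = io F ((z : ℕ) : ZMod 3) := by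
    rintro a (rfl | rfl | rfl)
    · exact ⟨0, by norm_num, by simp⟩
    · exact ⟨1, by norm_num, by simp⟩
    · refine ⟨2, by norm_num, ?_⟩
      have h3 := three_eq_zero (F := F)
      have h2 : io F ((2 : ℕ) : ZMod 3) = 2 := by
        rw [Nat.cast_ofNat, map_ofNat]
      rw [h2]
      linear_combination -h3
  have hex : ∀ j : ℕ, ∃ z : ℕ, z < 3 ∧ (j < 7 → ks.getD j 0 = io F ((z : ℕ) : ZMod 3)) := by
    intro j
    by_cases hj : j < ks.length
    · obtain ⟨z, hz, h⟩ := key (ks.getD j 0) (ht _ (by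
        rw [List.getD_eq_getElem _ _ hj]
        exact List.getElem_mem hj))
      exact ⟨z, hz, fun _ => h⟩
    · exact ⟨0, by norm_num, fun h => absurd (by omega) hj⟩
  choose z hz hz' using hex
  obtain ⟨d, hd, hdz⟩ := exists_digits z hz 7
  have h7 : (3 : ℕ) ^ 7 = 2187 := by norm_num
  obtain ⟨a, n, h1, h2, h⟩ := H d (by rw [← h7]; exact hd)
  obtain ⟨rs', h3, h4⟩ := ini_sound (g := g) d 7 0 [] [] _ GoodL.nil (rng_step h h1 h2)
  rw [List.nil_append, ← List.range_eq_range'] at h4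
  have he : ((List.range 7).map fun j => io F ((dg d j : ℕ) : ZMod 3)) = ks := by
    apply List.ext_getElem
    · rw [List.length_map, List.length_range, hl]
    · intro j hj1 hj2
      have hj7 : j < 7 := by omega
      rw [List.getElem_map, List.getElem_range, hdz j hj7, ← hz' j hj7, List.getD_eq_getElem _ _ hj2]
  rw [he] at h4
  refine run_sound hg p (i := 0) (N := 1) (ls := []) ?_ (by norm_num) h4 GoodL.nil hw
  rw [hl]
  exact h3

end Cfsg.Agent.H728.PM
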